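import Cfsg.Agent.H419.EP.Iface
import Cfsg.Agent.Lib.Cores

/-!
# S3499: two kill criteria on the level of the matrix group (helper29)

* `EPT.pgroup` : a normal `p`-subgroup `R` of `A` is abelian and `R ∩ A^x = 1` for `x ∉ A`;
* `kill_p_comm`, `kill_p_conj` : the same for a normal subgroup of `Â` of `p`-elements;
* `kill_norm` : `Â ∩ Â^x` is self-normalising in `Â`.
-/

set_option autoImplicit false

namespace Cfsg.Agent.H29.EP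

open Subgroup Cfsg Cfsg.Agent.H284 Cfsg.Agent.H419.EP
open scoped MatrixGroups

section abstract

variable {Q : Type*} [Group Q] [Finite Q] {A : Subgroup Q} {Γ : Subgroup (MulAut Q)}

/-- the automorphism of `A` induced by an element of `Γ` -/
noncomputable def resAut (h : EPT A Γ) {σ : MulAut Q} (hσ : σ ∈ Γ) : A ≃* A where
  toFun a := ⟨σ a, (h.inv σ hσ a).2 a.2⟩
  invFun a := ⟨σ⁻¹ a, (h.inv σ⁻¹ (inv_mem hσ) a).2 a.2⟩
  left_inv a := Subtype.ext (MulAut.inv_apply_self _ σ a)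
  right_inv a := Subtype.ext (MulAut.apply_inv_self _ σ a)
  map_mul' _ _ := Subtype.ext (map_mul σ _ _)

omit [Finite Q] in
/-- characteristic subgroups of `A` are invariant under `Γ` -/
theorem char_inv (h : EPT A Γ) (K : Subgroup A) [hK : K.Characteristic] {σ : MulAut Q} (hσ : σ ∈ Γ) :
    ∀ k ∈ K.map A.subtype, σ k ∈ K.map A.subtype := by
  rintro _ ⟨k, hk, rfl⟩
  have h1 := (characteristic_iff_map_le.1 hK) (resAut h hσ)
  have h2 : resAut h hσ k ∈ K := h1 ⟨k, hk, rfl⟩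
  exact ⟨resAut h hσ k, h2, rfl⟩

/-- **normal `p`-subgroups of `A`** -/
theorem pgroup (h : EPT A Γ) {p : ℕ} [Fact p.Prime] {R : Subgroup Q} (hR : R ≤ A)
    (hn : ∀ a ∈ A, ∀ r ∈ R, a * r * a⁻¹ ∈ R) (hp : IsPGroup p R) :
    (∀ a ∈ R, ∀ b ∈ R, a * b = b * a) ∧ ∀ x, x ∉ A → R ⊓ cj x A = ⊥ := by
  by_cases hne : R = ⊥
  · subst hne
    refine ⟨?_, fun x _ => bot_inf_eq _⟩
    intro a ha b hb
    rw [mem_bot] at ha hb
    rw [ha, hb]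
  set K : Subgroup Q := (pCore p A).map A.subtype with hKdef
  have hRA : R.subgroupOf A ≤ pCore p A := by
    refine Lib.Cores.le_pCore ⟨?_⟩ hp.comap_subtype
    intro r hr a
    rw [mem_subgroupOf] at hr ⊢
    exact hn a a.2 _ hr
  have hRK : R ≤ K := by
    intro r hr
    exact ⟨⟨r, hR hr⟩, hRA (mem_subgroupOf.2 hr), rfl⟩
  have hKp : IsPGroup p K := (Lib.Cores.pCore_isPGroup p).map _
  have hKn : K ≠ ⊥ := fun e => hne (le_bot_iff.1 (e ▸ hRK))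
  have hchar := Lib.Cores.pCore_characteristic (G := A) p
  obtain ⟨h1, -, -, h4, -⟩ := h.nilp K (by rintro _ ⟨k, _, rfl⟩; exact k.2) (fun σ hσ => char_inv h _ hσ)
    hKp.isNilpotent hKn
  refine ⟨fun a ha b hb => h1 a (hRK ha) b (hRK hb), fun x hx => ?_⟩
  rw [eq_bot_iff, ← (h4 x hx).1]
  exact inf_le_inf_right _ hRK

end abstract

section matrix

variable {Q : Type*} [Group Q] [Finite Q] {A : Subgroup Q} {Γ : Subgroup (MulAut Q)} (h : EPT A Γ)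
variable {ι : Type} [Fintype ι] [DecidableEq ι] {F : Type*} [Field F] {S : Subgroup (GL ι F)} (m : Model Q S)

include h

/-- `Â ∩ Â^x` is self-normalising in `Â` -/
theorem kill_norm {x : GL ι F} (hxS : x ∈ S) (hx : x ∉ m.hat A) {p : GL ι F} (hp : p ∈ m.hat A)
    (hn : ∀ g ∈ m.hat A, x⁻¹ * g * x ∈ m.hat A → x⁻¹ * (p * g * p⁻¹) * x ∈ m.hat A) : x⁻¹ * p * x ∈ m.hat A := by
  rw [← mem_cj (x := x)]
  have hx' : m.π ⟨x, hxS⟩ ∉ A := fun e => hx ((m.mem_hat_iff ⟨x, hxS⟩).2 e)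
  obtain ⟨hpS, hpA⟩ := m.mem_hat.1 hp
  have key : m.π ⟨p, hpS⟩ ∈ cj (m.π ⟨x, hxS⟩) A := by
    refine h.norm_aut hx' (K := A ⊓ cj (m.π ⟨x, hxS⟩) A) le_rfl (fun σ hσ => hσ) (h.M0 _ hx') hpA ?_
    intro k hk
    obtain ⟨s, rfl⟩ := m.surj k
    have hs1 : (s : GL ι F) ∈ m.hat A := (m.mem_hat_iff s).2 (mem_inf.1 hk).1
    have hs2 : x⁻¹ * (s : GL ι F) * x ∈ m.hat A := by
      have := (mem_cj.1 (mem_inf.1 hk).2)
      rw [← map_inv, ← map_mul, ← map_mul, ← m.mem_hat_iff] at this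
      exact this
    have h3 := hn _ hs1 hs2
    refine mem_inf.2 ⟨A.mul_mem (A.mul_mem hpA (mem_inf.1 hk).1) (A.inv_mem hpA), mem_cj.2 ?_⟩
    rw [← map_inv, ← map_inv, ← map_mul, ← map_mul, ← map_mul, ← map_mul, ← m.mem_hat_iff]
    exact h3
  rw [← m.hat_cj A ⟨x, hxS⟩]
  exact m.mem_hat.2 ⟨hpS, key⟩

omit [Finite Q] h in
theorem map_p {p : ℕ} {R : Subgroup (GL ι F)} (hp : ∀ r ∈ R, ∃ k : ℕ, r ^ p ^ k = 1) :
    IsPGroup p ((R.subgroupOf S).map m.π) := by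
  rintro ⟨_, r, hr, rfl⟩
  obtain ⟨k, hk⟩ := hp _ hr
  refine ⟨k, Subtype.ext ?_⟩
  change m.π r ^ p ^ k = 1
  rw [← map_pow]
  have : r ^ p ^ k = 1 := Subtype.ext hk
  rw [this, map_one]

theorem kill_p_aux {p : ℕ} [Fact p.Prime] {R : Subgroup (GL ι F)} (hR : R ≤ m.hat A)
    (hn : ∀ a ∈ m.hat A, ∀ r ∈ R, a * r * a⁻¹ ∈ R) (hp : ∀ r ∈ R, ∃ k : ℕ, r ^ p ^ k = 1) :
    (∀ a ∈ (R.subgroupOf S).map m.π, ∀ b ∈ (R.subgroupOf S).map m.π, a * b = b * a) ∧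
      ∀ x, x ∉ A → (R.subgroupOf S).map m.π ⊓ cj x A = ⊥ := by
  refine pgroup h ?_ ?_ (map_p m hp)
  · rintro _ ⟨r, hr, rfl⟩
    exact (m.mem_hat_iff r).1 (hR hr)
  · rintro a ha _ ⟨r, hr, rfl⟩
    obtain ⟨s, rfl⟩ := m.surj a
    refine ⟨s * r * s⁻¹, hn _ ((m.mem_hat_iff s).2 ha) _ hr, ?_⟩
    rw [map_mul, map_mul, map_inv]

/-- a normal subgroup of `p`-elements of `Â` is abelian modulo scalars -/
theorem kill_p_comm {p : ℕ} [Fact p.Prime] {R : Subgroup (GL ι F)} (hR : R ≤ m.hat A)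
    (hn : ∀ a ∈ m.hat A, ∀ r ∈ R, a * r * a⁻¹ ∈ R) (hp : ∀ r ∈ R, ∃ k : ℕ, r ^ p ^ k = 1) {r s : GL ι F} (hr : r ∈ R)
    (hs : s ∈ R) : ∃ z ∈ Geo.scalars ι F, r * s = s * r * z := by
  have hrS := m.hat_le A (hR hr)
  have hsS := m.hat_le A (hR hs)
  have h1 := (kill_p_aux h m hR hn hp).1 (m.π ⟨r, hrS⟩) ⟨⟨r, hrS⟩, hr, rfl⟩ (m.π ⟨s, hsS⟩) ⟨⟨s, hsS⟩, hs, rfl⟩
  rw [← map_mul, ← map_mul, m.π_eq_iff] at h1
  exact h1

/-- a normal subgroup of `p`-elements of `Â` meets `Â^x` in scalars -/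
theorem kill_p_conj {p : ℕ} [Fact p.Prime] {R : Subgroup (GL ι F)} (hR : R ≤ m.hat A)
    (hn : ∀ a ∈ m.hat A, ∀ r ∈ R, a * r * a⁻¹ ∈ R) (hp : ∀ r ∈ R, ∃ k : ℕ, r ^ p ^ k = 1) {x : GL ι F} (hxS : x ∈ S)
    (hx : x ∉ m.hat A) {r : GL ι F} (hr : r ∈ R) (hrx : x⁻¹ * r * x ∈ m.hat A) : r ∈ Geo.scalars ι F := by
  have hx' : m.π ⟨x, hxS⟩ ∉ A := fun e => hx ((m.mem_hat_iff ⟨x, hxS⟩).2 e)
  have hrS := m.hat_le A (hR hr)
  have h1 := (kill_p_aux h m hR hn hp).2 _ hx'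
  have h2 : m.π ⟨r, hrS⟩ ∈ (R.subgroupOf S).map m.π ⊓ cj (m.π ⟨x, hxS⟩) A := by
    refine mem_inf.2 ⟨⟨⟨r, hrS⟩, hr, rfl⟩, mem_cj.2 ?_⟩
    rw [← map_inv, ← map_mul, ← map_mul, ← m.mem_hat_iff]
    exact hrx
  rw [h1, mem_bot, m.ker] at h2
  exact h2

end matrix

end Cfsg.Agent.H29.EP
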