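import Cfsg.Agent.H29.EP.Kill
import Cfsg.Agent.ClassicalGeometry.HermOrtho
import Cfsg.Agent.ClassicalGeometry.UnitTransv
import Cfsg.Agent.ClassicalGeometry.GUBasic

/-!
# S3499-III-SU-C1: reducible subgroups of `SU_n(q)` (helper29)

`su_c1`: if `Â` leaves a subspace `0 ≠ W ≠ F^n` invariant then `A` is no point stabiliser of an extremely primitive group with
socle `PSU_n(q)`, `n ≥ 3`, `(n, q) ≠ (3, 2)`.

* `W` totally isotropic: the unipotent radical is a normal `p`-subgroup of `Â`; it is not abelian for `dim W = 1`, and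
  contains a transvection of `Â^x` for some `x` when `dim W ≥ 2`.
* `W` not degenerate: for the element `x` with `x v = v + d h(v, w) u` on `W` (`w ∈ W` a unit vector, `u ∈ W^⊥` isotropic)
  the group `Â ∩ Â^x` is normalised by every element of `Â` which has `w` and `u` as eigenvectors.
-/

set_option autoImplicit false

namespace Cfsg.Agent.H29.EP.SU

open Matrix Module Subgroup Cfsg Cfsg.Agent.H284 Cfsg.Agent.H419.EP Cfsg.Agent.LieClassical.HermBasic
open Cfsg.Agent.ClassicalGeometry.HermOrtho Cfsg.Agent.ClassicalGeometry.UnitTransv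
open scoped MatrixGroups

section basic

variable {F : Type*} [Field F] {n q : ℕ}

/-- the action on column vectors -/
def ac (g : GL (Fin n) F) : (Fin n → F) →ₗ[F] (Fin n → F) := Matrix.mulVecLin (g : Matrix (Fin n) (Fin n) F)

theorem ac_apply (g : GL (Fin n) F) (v : Fin n → F) : ac g v = (g : Matrix (Fin n) (Fin n) F) *ᵥ v := rfl

theorem ac_mul (g h : GL (Fin n) F) (v : Fin n → F) : ac (g * h) v = ac g (ac h v) := by
  rw [ac_apply, ac_apply, ac_apply, Matrix.mulVec_mulVec]; rfl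

theorem ac_one (v : Fin n → F) : ac (1 : GL (Fin n) F) v = v := by
  rw [ac_apply, Units.val_one, Matrix.one_mulVec]

theorem ac_inv_ac (g : GL (Fin n) F) (v : Fin n → F) : ac g⁻¹ (ac g v) = v := by
  rw [← ac_mul, inv_mul_cancel, ac_one]

theorem ac_ac_inv (g : GL (Fin n) F) (v : Fin n → F) : ac g (ac g⁻¹ v) = v := by
  rw [← ac_mul, mul_inv_cancel, ac_one]

theorem ac_inj (g : GL (Fin n) F) : Function.Injective (ac g) := by
  intro x y h
  rw [← ac_inv_ac g x, h, ac_inv_ac]

theorem ext_ac {g h : GL (Fin n) F} (e : ∀ v, ac g v = ac h v) : g = h := by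
  apply Units.ext
  exact Matrix.ext_of_mulVec_single fun i => e _

theorem ac_inv_eq {g : GL (Fin n) F} {v w : Fin n → F} (h : ac g v = w) : ac g⁻¹ w = v := by
  rw [← h, ac_inv_ac]

theorem herm_ac {g : GL (Fin n) F} (hg : g ∈ GU n F q) (u v : Fin n → F) :
    hermForm n F q (ac g u) (ac g v) = hermForm n F q u v := hg u v

theorem herm_ac_left {g : GL (Fin n) F} (hg : g ∈ GU n F q) (u v : Fin n → F) :
    hermForm n F q (ac g u) v = hermForm n F q u (ac g⁻¹ v) := by
  rw [← herm_ac hg u, ac_ac_inv]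

theorem ac_scalar {g : GL (Fin n) F} (hg : g ∈ Geo.scalars (Fin n) F) : ∃ c : F, ∀ v, ac g v = c • v := by
  obtain ⟨c, hc⟩ := (Geo.mem_scalars_iff g).1 hg
  refine ⟨c, fun v => ?_⟩
  rw [ac_apply, hc, Matrix.smul_mulVec, Matrix.one_mulVec]

theorem eq_one_of_scalar {g : GL (Fin n) F} (hg : g ∈ Geo.scalars (Fin n) F) {w : Fin n → F} (hw : w ≠ 0)
    (h : ac g w = w) : g = 1 := by
  obtain ⟨c, hc⟩ := ac_scalar hg
  have h1 : (c - 1) • w = 0 := by rw [sub_smul, one_smul, ← hc, h, sub_self]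
  have h2 : c = 1 := by
    rcases smul_eq_zero.1 h1 with h2 | h2
    · exact sub_eq_zero.1 h2
    · exact absurd h2 hw
  apply ext_ac
  intro v
  rw [hc, h2, one_smul, ac_one]

theorem mem_stab {W : Submodule F (Fin n → F)} {g : GL (Fin n) F} (h : ∀ v ∈ W, ac g v ∈ W) :
    g ∈ Geo.subspaceStabilizer W := by
  have h1 : W.map (ac g) = W := by
    apply Submodule.eq_of_le_of_finrank_eq
    · rintro _ ⟨v, hv, rfl⟩
      exact h v hv
    · exact (Submodule.equivMapOfInjective (ac g) (ac_inj g) W).finrank_eq.symm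
  intro v
  constructor
  · intro hv
    exact h v hv
  · intro hv
    have h2 : ac g v ∈ W.map (ac g) := by rw [h1]; exact hv
    obtain ⟨v', hv', e⟩ := h2
    rw [← ac_inj g e]
    exact hv'

end basic

/-! ### Elements of `SU` -/

section elements

variable {F : Type*} [Field F] [Fintype F] {n q : ℕ} (hF : Fintype.card F = q ^ 2)

/-- `SU_n(q)` in `GL_n` -/
abbrev SS (n : ℕ) (F : Type*) [Field F] (q : ℕ) : Subgroup (GL (Fin n) F) := GU n F q ⊓ Geo.specialLinear (Fin n) F

omit [Fintype F] in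
theorem mem_SS {g : GL (Fin n) F} (h : g ∈ GU n F q) (hd : (g : Matrix (Fin n) (Fin n) F).det = 1) : g ∈ SS n F q := by
  exact mem_inf.2 ⟨h, MonoidHom.mem_ker.2 (Units.ext hd)⟩

include hF

theorem exists_T {y : Fin n → F} {c : F} (hc : c + c ^ q + c * c ^ q * hermForm n F q y y = 0) :
    ∃ g ∈ GU n F q, (∀ v, ac g v = v + (c * hermForm n F q v y) • y) ∧
      (g : Matrix (Fin n) (Fin n) F).det = 1 + c * hermForm n F q y y := by
  obtain ⟨g, hg, e⟩ := exists_GU_of_isometry hF (M := unitaryTransvection n q y c) (by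
    intro u v
    rw [unitaryTransvection_mulVec, unitaryTransvection_mulVec, herm_add_left, herm_add_right hF, herm_add_right hF,
      herm_smul_left, herm_smul_right, herm_smul_left, herm_smul_right, mul_pow]
    have e : hermForm n F q y v = (hermForm n F q v y) ^ q := herm_swap hF v y
    rw [e]
    linear_combination (hermForm n F q u y * (hermForm n F q v y) ^ q) * hc)
  refine ⟨g, hg, fun v => ?_, ?_⟩
  · rw [ac_apply, e, unitaryTransvection_mulVec]
  · rw [e, unitaryTransvection_eq, det_rankOne, herm_smul_left]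

/-- quasi-reflections -/
theorem exists_qr {y : Fin n → F} (hy : hermForm n F q y y = 1) {β : F} (hβ : β * β ^ q = 1) :
    ∃ g ∈ GU n F q, (∀ v, ac g v = v + ((β - 1) * hermForm n F q v y) • y) ∧
      (g : Matrix (Fin n) (Fin n) F).det = β := by
  obtain ⟨g, hg, h1, h2⟩ := exists_T hF (y := y) (c := β - 1) (by
    rw [hy, sub_pow_q hF, one_pow]
    linear_combination hβ)
  refine ⟨g, hg, h1, ?_⟩
  rw [h2, hy]
  ring

/-- transvections -/
theorem exists_tv {u : Fin n → F} (hu : hermForm n F q u u = 0) {c : F} (hc : c + c ^ q = 0) :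
    ∃ g ∈ SS n F q, ∀ v, ac g v = v + (c * hermForm n F q v u) • u := by
  obtain ⟨g, hg, h1, h2⟩ := exists_T hF (y := u) (c := c) (by rw [hu, mul_zero, add_zero]; exact hc)
  refine ⟨g, mem_SS hg ?_, h1⟩
  rw [h2, hu, mul_zero, add_zero]

/-- products of two quasi-reflections -/
theorem exists_qq {y z : Fin n → F} (hy : hermForm n F q y y = 1) (hz : hermForm n F q z z = 1) {β : F}
    (hβ : β * β ^ q = 1) : ∃ g ∈ SS n F q, ∀ v, ac g v = v + ((β ^ q - 1) * hermForm n F q v z) • z +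
      ((β - 1) * hermForm n F q (v + ((β ^ q - 1) * hermForm n F q v z) • z) y) • y := by
  obtain ⟨g, hg, h1, h2⟩ := exists_qr hF hy hβ
  obtain ⟨k, hk, h3, h4⟩ := exists_qr hF hz (β := β ^ q) (by rw [pow_q_pow_q hF, mul_comm]; exact hβ)
  refine ⟨g * k, mem_SS (mul_mem hg hk) ?_, fun v => ?_⟩
  · rw [Units.val_mul, Matrix.det_mul, h2, h4, hβ]
  · rw [ac_mul, h1, h3]

/-- Siegel elements -/
theorem exists_sieg {w u : Fin n → F} (hw : hermForm n F q w w = 1) (hu : hermForm n F q u u = 0)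
    (huw : hermForm n F q u w = 0) {β : F} (hβ : β * β ^ q = 1) :
    ∃ x ∈ SS n F q, ∀ v, ac x v = v + ((1 - β ^ q) * hermForm n F q v w) • u +
      ((β - 1) * hermForm n F q v u) • (w + u) := by
  have hwu := herm_eq_zero_swap hF huw
  obtain ⟨x, hx, h1⟩ := exists_qq hF (y := w + u) (z := w) (by
    rw [herm_add_left, herm_add_right hF, herm_add_right hF, hw, hu, huw, hwu]; ring) hw hβ
  refine ⟨x, hx, fun v => ?_⟩
  rw [h1]
  simp only [herm_add_left, herm_add_right hF, herm_smul_left, hw, hwu]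
  ext i
  simp only [Pi.add_apply, Pi.smul_apply, smul_eq_mul]
  linear_combination ((w i + u i) * hermForm n F q v w) * hβ

omit hF in
/-- scalars -/
theorem exists_sc {b : F} (hb : b * b ^ q = 1) (hF : Fintype.card F = q ^ 2) :
    ∃ g ∈ GU n F q, (∀ v, ac g v = b • v) ∧ (g : Matrix (Fin n) (Fin n) F).det = b ^ n := by
  obtain ⟨g, hg, e⟩ := exists_GU_of_isometry hF (M := b • (1 : Matrix (Fin n) (Fin n) F)) (by
    intro u v
    rw [Matrix.smul_mulVec, Matrix.smul_mulVec, Matrix.one_mulVec, Matrix.one_mulVec, herm_smul_left,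
      herm_smul_right, ← mul_assoc, hb, one_mul])
  refine ⟨g, hg, fun v => ?_, ?_⟩
  · rw [ac_apply, e, Matrix.smul_mulVec, Matrix.one_mulVec]
  · rw [e, Matrix.det_smul, Matrix.det_one, mul_one, Fintype.card_fin]

/-- a vector with `H y v ≠ 0`, moved to an isotropic one by `v` -/
theorem exists_iso {v y : Fin n → F} (hv : hermForm n F q v v = 0) (h : hermForm n F q y v ≠ 0) :
    ∃ l : F, hermForm n F q (y + l • v) (y + l • v) = 0 := by
  obtain ⟨t, ht⟩ := exists_trace_eq hF (c := - hermForm n F q y y) (by rw [neg_pow_q hF, herm_self_pow hF])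
  have hvy : hermForm n F q v y ≠ 0 := fun e => h (herm_eq_zero_swap hF e)
  refine ⟨t / hermForm n F q v y, ?_⟩
  have e1 : hermForm n F q y v = (hermForm n F q v y) ^ q := herm_swap hF v y
  rw [herm_add_left, herm_add_right hF, herm_add_right hF, herm_smul_left, herm_smul_right, herm_smul_left,
    herm_smul_right, hv, e1, div_pow]
  have h2 : (hermForm n F q v y) ^ q ≠ 0 := by rw [← e1]; exact h
  rw [div_mul_cancel₀ _ h2, div_mul_cancel₀ _ hvy]
  linear_combination ht

theorem dbl {w v : Fin n → F} (hw : w ≠ 0) (h : ∀ y, hermForm n F q y w = 0 → hermForm n F q y v = 0) :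
    ∃ c : F, v = c • w := by
  obtain ⟨y0, hy0⟩ := exists_herm_ne_zero hF hw
  have hy : hermForm n F q y0 w ≠ 0 := fun e => hy0 (herm_eq_zero_swap hF e)
  refine ⟨(hermForm n F q y0 v / hermForm n F q y0 w) ^ q, ?_⟩
  rw [← sub_eq_zero]
  refine herm_nondeg hF (q := q) fun y => ?_
  apply herm_eq_zero_swap hF
  rw [herm_sub_right hF, herm_smul_right, pow_q_pow_q hF]
  have h1 := h (y - (hermForm n F q y w / hermForm n F q y0 w) • y0) (by
    rw [herm_sub_left, herm_smul_left, div_mul_cancel₀ _ hy, sub_self])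
  rw [herm_sub_left, herm_smul_left] at h1
  rw [← h1]
  field_simp

end elements

/-! ### The rows -/

section rows

variable {Q : Type*} [Group Q] [Finite Q] {A : Subgroup Q} {Γ : Subgroup (MulAut Q)} (h : EPT A Γ)
variable {F : Type*} [Field F] [Fintype F] {n q : ℕ} (hF : Fintype.card F = q ^ 2) (m : Model Q (SS n F q))

omit [Finite Q] [Fintype F] in
include h in
theorem hat_iff {W : Submodule F (Fin n → F)} (hA : ∀ g ∈ m.hat A, ∀ v ∈ W, ac g v ∈ W) {x : GL (Fin n) F}
    (hx : x ∈ SS n F q) {w : Fin n → F} (hw : w ∈ W) (hxw : ac x w ∉ W) {g : GL (Fin n) F} :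
    g ∈ m.hat A ↔ g ∈ SS n F q ∧ ∀ v ∈ W, ac g v ∈ W := by
  constructor
  · intro hg
    exact ⟨m.hat_le A hg, hA g hg⟩
  · rintro ⟨h1, h2⟩
    have h3 : m.hat A ≤ Geo.subspaceStabilizer W ⊓ SS n F q := fun g hg => mem_inf.2 ⟨mem_stab (hA g hg), m.hat_le A hg⟩
    rcases (m.isMaximalIn h.max).2 _ h3 inf_le_right with h4 | h4
    · rw [← h4]
      exact mem_inf.2 ⟨mem_stab h2, h1⟩
    · exfalso
      have h5 : x ∈ Geo.subspaceStabilizer W ⊓ SS n F q := by rw [h4]; exact hx
      exact hxw (((mem_inf.1 h5).1 w).1 hw)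

/-! #### totally isotropic subspaces -/

variable {W : Submodule F (Fin n → F)}

/-- the unipotent radical -/
def Rad (W : Submodule F (Fin n → F)) (hW : ∀ u ∈ W, ∀ v ∈ W, hermForm n F q u v = 0) :
    Subgroup (GL (Fin n) F) where
  carrier := {g | g ∈ SS n F q ∧ (∀ v ∈ W, ac g v = v) ∧ (∀ v ∈ hermPerp q (W : Set (Fin n → F)), ac g v - v ∈ W) ∧
    ∀ v, ac g v - v ∈ hermPerp q (W : Set (Fin n → F))}
  one_mem' := by
    refine ⟨one_mem _, fun v _ => ac_one v, fun v _ => ?_, fun v => ?_⟩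
    · rw [ac_one, sub_self]; exact zero_mem _
    · rw [ac_one, sub_self]; exact zero_mem _
  mul_mem' := by
    rintro g k ⟨g1, g2, g3, g4⟩ ⟨k1, k2, k3, k4⟩
    refine ⟨mul_mem g1 k1, fun v hv => ?_, fun v hv => ?_, fun v => ?_⟩
    · rw [ac_mul, k2 v hv, g2 v hv]
    · have e : ac (g * k) v - v = (ac g v - v) + ac g (ac k v - v) := by rw [ac_mul, map_sub]; abel
      rw [e, g2 _ (k3 v hv)]
      exact add_mem (g3 v hv) (k3 v hv)
    · have e : ac (g * k) v - v = (ac g v - v) + ((ac g (ac k v - v) - (ac k v - v)) + (ac k v - v)) := by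
        rw [ac_mul, map_sub]; abel
      rw [e]
      refine add_mem (g4 v) (add_mem ?_ (k4 v))
      exact fun w hw => hW _ (g3 _ (k4 v)) w hw
  inv_mem' := by
    rintro g ⟨g1, g2, g3, g4⟩
    have gi : ∀ v ∈ W, ac g⁻¹ v = v := fun v hv => ac_inv_eq (g2 v hv)
    refine ⟨inv_mem g1, gi, fun v hv => ?_, fun v => ?_⟩
    · have h1 : ac g⁻¹ v ∈ hermPerp q (W : Set (Fin n → F)) := by
        intro w hw
        rw [herm_ac_left (inv_mem (mem_inf.1 g1).1), inv_inv, g2 w hw]
        exact hv w hw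
      have h2 := neg_mem (g3 _ h1)
      rwa [ac_ac_inv, neg_sub] at h2
    · have h2 := neg_mem (g4 (ac g⁻¹ v))
      rwa [ac_ac_inv, neg_sub] at h2

variable (hW : ∀ u ∈ W, ∀ v ∈ W, hermForm n F q u v = 0)

omit [Fintype F] in
theorem rad_normal {a r : GL (Fin n) F} (ha : a ∈ SS n F q) (haW : ∀ v ∈ W, ac a v ∈ W) (haW' : ∀ v ∈ W, ac a⁻¹ v ∈ W)
    (hr : r ∈ Rad W hW) : a * r * a⁻¹ ∈ Rad W hW := by
  obtain ⟨r1, r2, r3, r4⟩ := hr
  have hP : ∀ v ∈ hermPerp q (W : Set (Fin n → F)), ac a v ∈ hermPerp q (W : Set (Fin n → F)) := by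
    intro v hv w hw
    rw [herm_ac_left (mem_inf.1 ha).1]
    exact hv _ (haW' w hw)
  have hP' : ∀ v ∈ hermPerp q (W : Set (Fin n → F)), ac a⁻¹ v ∈ hermPerp q (W : Set (Fin n → F)) := by
    intro v hv w hw
    rw [herm_ac_left (inv_mem (mem_inf.1 ha).1), inv_inv]
    exact hv _ (haW w hw)
  have e : ∀ v, ac (a * r * a⁻¹) v - v = ac a (ac r (ac a⁻¹ v) - ac a⁻¹ v) := by
    intro v
    rw [ac_mul, ac_mul, map_sub, ac_ac_inv]
  refine ⟨mul_mem (mul_mem ha r1) (inv_mem ha), fun v hv => ?_, fun v hv => ?_, fun v => ?_⟩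
  · rw [← sub_eq_zero, e, r2 _ (haW' v hv), sub_self, map_zero]
  · rw [e]
    exact haW _ (r3 _ (hP' v hv))
  · rw [e]
    exact hP _ (r4 _)

omit [Fintype F] in
theorem rad_p {p : ℕ} [Fact p.Prime] [CharP F p] {r : GL (Fin n) F} (hr : r ∈ Rad W hW) : r ^ p ^ 2 = 1 := by
  obtain ⟨r1, r2, r3, r4⟩ := hr
  set N : Matrix (Fin n) (Fin n) F := (r : Matrix (Fin n) (Fin n) F) - 1 with hN
  have hNv : ∀ v, N *ᵥ v = ac r v - v := by
    intro v
    rw [hN, Matrix.sub_mulVec, Matrix.one_mulVec, ac_apply]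
  have h3 : N ^ 3 = 0 := by
    apply Matrix.ext_of_mulVec_single
    intro i
    rw [pow_succ, pow_two, ← Matrix.mulVec_mulVec, ← Matrix.mulVec_mulVec, Matrix.zero_mulVec]
    rw [hNv (Pi.single i 1), hNv, hNv, r2 _ (r3 _ (r4 _)), sub_self]
  apply Units.ext
  rw [Units.val_pow_eq_pow_val, Units.val_one]
  have e : (r : Matrix (Fin n) (Fin n) F) = 1 + N := by rw [hN]; abel
  have hp2 : 3 ≤ p ^ 2 := by
    have := (Fact.out : p.Prime).two_le
    nlinarith
  rcases isEmpty_or_nonempty (Fin n) with he | he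
  · exact Subsingleton.elim _ _
  rw [e, add_pow_char_pow_of_commute (p := p) (n := 2) (Commute.one_left N), one_pow, pow_eq_zero_of_le hp2 h3, add_zero]

include hF in
theorem exists_move (hW0 : W ≠ ⊥) (hW : ∀ u ∈ W, ∀ v ∈ W, hermForm n F q u v = 0) :
    ∃ x ∈ SS n F q, ∃ w ∈ W, ac x w ∉ W := by
  obtain ⟨v, hv, hv0⟩ := (Submodule.ne_bot_iff _).1 hW0
  obtain ⟨y, hy⟩ := exists_herm_ne_zero hF hv0
  have hy' : hermForm n F q y v ≠ 0 := fun e => hy (herm_eq_zero_swap hF e)
  obtain ⟨l, hl⟩ := exists_iso hF (hW v hv v hv) hy'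
  obtain ⟨c, hc0, hc⟩ := exists_trace_zero_ne hF
  obtain ⟨x, hx, hxa⟩ := exists_tv hF hl hc
  have h1 : hermForm n F q (y + l • v) v ≠ 0 := by
    rw [herm_add_left, herm_smul_left, hW v hv v hv, mul_zero, add_zero]
    exact hy'
  have h2 : hermForm n F q v (y + l • v) ≠ 0 := fun e => h1 (herm_eq_zero_swap hF e)
  refine ⟨x, hx, v, hv, fun h3 => ?_⟩
  rw [hxa] at h3
  have h4 := (Submodule.add_mem_iff_right W hv).1 h3
  have h5 := (Submodule.smul_mem_iff W (mul_ne_zero hc0 h2)).1 h4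
  exact h1 (hW _ h5 v hv)

include hF in
/-- a nonisotropic vector orthogonal to `w` -/
theorem exists_unit (hn : 3 ≤ n) {w : Fin n → F} (hw : w ≠ 0) :
    ∃ z, hermForm n F q z w = 0 ∧ hermForm n F q z z = 1 := by
  obtain ⟨z, hz, hzz⟩ : ∃ z, hermForm n F q z w = 0 ∧ hermForm n F q z z ≠ 0 := by
    by_contra hcon
    push Not at hcon
    have h1 : ∀ v ∈ LinearMap.ker (hermLeft q w), hermForm n F q v v = 0 := fun v hv => hcon v hv
    have h2 : LinearMap.ker (hermLeft q w) ≤ Submodule.span F {w} := by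
      intro v hv
      rw [Submodule.mem_span_singleton]
      obtain ⟨c, hc⟩ := dbl hF hw (v := v) (fun y hy => herm_eq_zero_of_isotropic hF _ h1 hy hv)
      exact ⟨c, hc.symm⟩
    have h3 := Submodule.finrank_mono h2
    have h4 := finrank_span_singleton (K := F) hw
    have h5 := LinearMap.finrank_range_add_finrank_ker (hermLeft (F := F) (n := n) q w)
    have h6 : finrank F (LinearMap.range (hermLeft (F := F) (n := n) q w)) ≤ 1 := by
      have := Submodule.finrank_le (LinearMap.range (hermLeft (F := F) (n := n) q w))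
      rwa [finrank_self] at this
    rw [finrank_fin_fun] at h5
    omega
  obtain ⟨a, ha⟩ := exists_norm_eq hF (c := (hermForm n F q z z)⁻¹) (by rw [inv_pow, herm_self_pow hF])
  refine ⟨a • z, ?_, ?_⟩
  · rw [herm_smul_left, hz, mul_zero]
  · rw [herm_smul_left, herm_smul_right, ← mul_assoc, ha, inv_mul_cancel₀ hzz]

include h hF in
/-- **totally isotropic subspaces** -/
theorem iso_false (hn : 3 ≤ n) (hW : ∀ u ∈ W, ∀ v ∈ W, hermForm n F q u v = 0) (hW0 : W ≠ ⊥)
    (hA : ∀ g ∈ m.hat A, ∀ v ∈ W, ac g v ∈ W) : False := by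
  obtain ⟨x₀, hx₀, w₀, hw₀, hxw₀⟩ := exists_move hF hW0 hW
  have hiff := fun g => hat_iff h m hA hx₀ hw₀ hxw₀ (g := g)
  obtain ⟨p, hp⟩ := CharP.exists F
  have hpp : Fact p.Prime := ⟨CharP.char_is_prime F p⟩
  have hR : Rad (q := q) W hW ≤ m.hat A := by
    rintro r ⟨r1, r2, -, -⟩
    rw [hiff]
    exact ⟨r1, fun v hv => by rw [r2 v hv]; exact hv⟩
  have hRn : ∀ a ∈ m.hat A, ∀ r ∈ Rad (q := q) W hW, a * r * a⁻¹ ∈ Rad (q := q) W hW := by
    intro a ha r hr
    exact rad_normal hW (m.hat_le A ha) (hA a ha) (hA _ (inv_mem ha)) hr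
  have hRp : ∀ r ∈ Rad (q := q) W hW, ∃ k : ℕ, r ^ p ^ k = 1 := fun r hr => ⟨2, rad_p hW hr⟩
  obtain ⟨w, hw, hw0⟩ := (Submodule.ne_bot_iff _).1 hW0
  have hww := hW w hw w hw
  obtain ⟨c, hc0, hc⟩ := exists_trace_zero_ne hF
  by_cases h2 : ∃ v ∈ W, ∀ a : F, v ≠ a • w
  · -- dimension at least two
    obtain ⟨v, hv, hvw⟩ := h2
    obtain ⟨y, hyw, hyv⟩ : ∃ y, hermForm n F q y w = 0 ∧ hermForm n F q y v ≠ 0 := by
      by_contra hcon
      push Not at hcon
      obtain ⟨a, ha⟩ := dbl hF hw0 hcon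
      exact hvw a ha
    obtain ⟨l, hl⟩ := exists_iso hF (hW v hv v hv) hyv
    set u := y + l • v with hu
    have huw : hermForm n F q u w = 0 := by rw [hu, herm_add_left, herm_smul_left, hyw, hW v hv w hw]; ring
    have hwu := herm_eq_zero_swap hF huw
    have huv : hermForm n F q u v ≠ 0 := by
      rw [hu, herm_add_left, herm_smul_left, hW v hv v hv, mul_zero, add_zero]
      exact hyv
    have hvu : hermForm n F q v u ≠ 0 := fun e => huv (herm_eq_zero_swap hF e)
    obtain ⟨x, hx, hxa⟩ := exists_tv hF hl hc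
    obtain ⟨t, ht, hta⟩ := exists_tv hF hww hc
    have hxA : x ∉ m.hat A := by
      intro h3
      have h4 := hA x h3 v hv
      rw [hxa] at h4
      have h5 := (Submodule.smul_mem_iff W (mul_ne_zero hc0 hvu)).1 ((Submodule.add_mem_iff_right W hv).1 h4)
      exact huv (hW _ h5 v hv)
    have htR : t ∈ Rad (q := q) W hW := by
      refine ⟨ht, fun v' hv' => ?_, fun v' hv' => ?_, fun v' => ?_⟩
      · rw [hta, hW v' hv' w hw, mul_zero, zero_smul, add_zero]
      · rw [hta, add_sub_cancel_left]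
        exact W.smul_mem _ hw
      · rw [hta, add_sub_cancel_left]
        exact Submodule.smul_mem _ _ fun w' hw' => hW w hw w' hw'
    have hcomm : x⁻¹ * t * x = t := by
      rw [mul_assoc, inv_mul_eq_iff_eq_mul]
      apply ext_ac
      intro z
      rw [ac_mul, ac_mul, hta, hxa, hxa, hta]
      simp only [herm_add_left, herm_smul_left, huw, hwu]
      ext i
      simp only [Pi.add_apply, Pi.smul_apply, smul_eq_mul]
      ring
    have h3 := kill_p_conj h m hR hRn hRp hx hxA htR (by rw [hcomm]; exact hR htR)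
    have h4 := eq_one_of_scalar h3 hw0 (htR.2.1 w hw)
    apply hw0
    refine herm_nondeg hF (q := q) fun z => ?_
    apply herm_eq_zero_swap hF
    have h5 := hta z
    rw [h4, ac_one] at h5
    have h6 : (c * hermForm n F q z w) • w = 0 := by
      have := congrArg (fun y => y - z) h5
      simpa using this.symm
    rcases smul_eq_zero.1 h6 with h7 | h7
    · rcases mul_eq_zero.1 h7 with h8 | h8
      · exact absurd h8 hc0
      · exact h8
    · exact absurd h7 hw0
  · -- dimension one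
    push Not at h2
    obtain ⟨z, hzw, hzz⟩ := exists_unit hF hn hw0
    have hwz := herm_eq_zero_swap hF hzw
    obtain ⟨β, hβ1, hβ2⟩ := Cfsg.Agent.ClassicalGeometry.GUBasic.exists_norm_one hF
    have hβ : β * β ^ q = 1 := by rw [← pow_succ']; exact hβ1
    have hX : ∀ a : F, ∃ g ∈ Rad (q := q) W hW, ∀ v, ac g v = v + ((β - 1) * a ^ q * hermForm n F q v w) • z +
        ((1 - β ^ q) * a * hermForm n F q v z + (β - 1) * a ^ q * a * hermForm n F q v w) • w := by
      intro a
      obtain ⟨g, hg, hga⟩ := exists_sieg hF (w := z) (u := a • w) hzz (by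
        rw [herm_smul_left, hW w hw _ (W.smul_mem a hw), mul_zero]) (by rw [herm_smul_left, hwz, mul_zero]) hβ
      have e : ∀ v, ac g v = v + ((β - 1) * a ^ q * hermForm n F q v w) • z +
          ((1 - β ^ q) * a * hermForm n F q v z + (β - 1) * a ^ q * a * hermForm n F q v w) • w := by
        intro v
        rw [hga, herm_smul_right]
        ext i
        simp only [Pi.add_apply, Pi.smul_apply, smul_eq_mul]
        ring
      refine ⟨g, ⟨hg, fun v hv => ?_, fun v hv => ?_, fun v => ?_⟩, e⟩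
      · obtain ⟨b, rfl⟩ := h2 v hv
        rw [e, herm_smul_left, herm_smul_left, hww, hwz]
        simp
      · rw [e, hv w hw, add_sub_right_comm]
        simp only [mul_zero, zero_smul, add_zero, sub_self, zero_add]
        exact W.smul_mem _ hw
      · have e2 : ac g v - v = ((β - 1) * a ^ q * hermForm n F q v w) • z +
            ((1 - β ^ q) * a * hermForm n F q v z + (β - 1) * a ^ q * a * hermForm n F q v w) • w := by
          rw [e]; abel
        rw [e2]
        refine add_mem (Submodule.smul_mem _ _ ?_) (Submodule.smul_mem _ _ fun w' hw' => hW w hw w' hw')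
        intro w' hw'
        obtain ⟨b, rfl⟩ := h2 w' hw'
        rw [herm_smul_right, hzw, mul_zero]
    obtain ⟨b, hb⟩ := exists_not_fixed hF
    obtain ⟨g, hg, hga⟩ := hX 1
    obtain ⟨k, hk, hka⟩ := hX b
    obtain ⟨s, hs, hgk⟩ := kill_p_comm h m hR hRn hRp hg hk
    have hs1 : s = 1 := by
      apply eq_one_of_scalar hs hw0
      have h3 : ac (g * k) w = ac (k * g * s) w := by rw [hgk]
      obtain ⟨a, ha⟩ := ac_scalar hs
      rw [ac_mul, ac_mul, ac_mul, hk.2.1 w hw, hg.2.1 w hw, ha, map_smul, map_smul, hg.2.1 w hw, hk.2.1 w hw] at h3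
      rw [ha, ← h3]
    rw [hs1, mul_one] at hgk
    obtain ⟨v, hv⟩ := exists_herm_ne_zero hF hw0
    have hv' : hermForm n F q v w ≠ 0 := fun e => hv (herm_eq_zero_swap hF e)
    have h3 : ac (g * k) v = ac (k * g) v := by rw [hgk]
    have hzz' : ∀ a : F, a * 1 = a := fun a => mul_one a
    have e1 : ac (g * k) v - ac (k * g) v = ((β - 1) * (1 - β ^ q) * hermForm n F q v w * (b ^ q - b)) • w := by
      rw [ac_mul, ac_mul, hka, hga (v + _ + _), hga v, hka (v + _ + _)]
      simp only [herm_add_left, herm_smul_left, hzz, hzw, hwz, hww, one_pow]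
      ext i
      simp only [Pi.add_apply, Pi.sub_apply, Pi.smul_apply, smul_eq_mul]
      ring
    rw [h3, sub_self] at e1
    rcases smul_eq_zero.1 e1.symm with h4 | h4
    · have hb' : b ^ q - b ≠ 0 := sub_ne_zero.2 hb
      have hβ3 : β - 1 ≠ 0 := sub_ne_zero.2 hβ2
      have hβ4 : 1 - β ^ q ≠ 0 := by
        intro e
        apply hβ2
        have : β ^ q = 1 := (sub_eq_zero.1 e).symm
        rw [this, mul_one] at hβ
        exact hβ
      exact mul_ne_zero (mul_ne_zero (mul_ne_zero hβ3 hβ4) hv') hb' h4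
    · exact hw0 h4

/-! #### nondegenerate subspaces -/

include h hF in
theorem nondeg_kill (hWn : ∀ u ∈ W, (∀ v ∈ W, hermForm n F q u v = 0) → u = 0)
    (hA : ∀ g ∈ m.hat A, ∀ v ∈ W, ac g v ∈ W) {w u : Fin n → F} (hw : w ∈ W) (hww : hermForm n F q w w = 1)
    (hu : ∀ v ∈ W, hermForm n F q u v = 0) (huu : hermForm n F q u u = 0) (hu0 : u ≠ 0) {p : GL (Fin n) F}
    (hp : p ∈ SS n F q) (hpW : ∀ v ∈ W, ac p v ∈ W) {α δ : F} (hpw : ac p w = α • w) (hpu : ac p u = δ • u)
    (hαδ : α ≠ δ) : False := by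
  have hu' : ∀ v ∈ W, hermForm n F q v u = 0 := fun v hv => herm_eq_zero_swap hF (hu v hv)
  obtain ⟨β, hβ1, hβ2⟩ := Cfsg.Agent.ClassicalGeometry.GUBasic.exists_norm_one hF
  have hβ : β * β ^ q = 1 := by rw [← pow_succ']; exact hβ1
  obtain ⟨x, hx, hxa⟩ := exists_sieg hF hww huu (hu w hw) hβ
  set d : F := 1 - β ^ q with hd
  have hd0 : d ≠ 0 := by
    intro e
    apply hβ2
    have : β ^ q = 1 := (sub_eq_zero.1 e).symm
    rw [this, mul_one] at hβ
    exact hβ
  have hxW : ∀ v ∈ W, ac x v = v + (d * hermForm n F q v w) • u := by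
    intro v hv
    rw [hxa, hu' v hv, mul_zero, zero_smul, add_zero]
  have hnW : ∀ a : F, ∀ v ∈ W, v + a • u ∈ W → a = 0 := by
    intro a v hv h1
    have h2 := (Submodule.add_mem_iff_right W hv).1 h1
    by_contra ha
    have h3 := (Submodule.smul_mem_iff W ha).1 h2
    exact hu0 (hWn u h3 hu)
  have hxw : ac x w ∉ W := by
    rw [hxW w hw, hww, mul_one]
    intro h1
    exact hd0 (hnW _ w hw h1)
  have hxA : x ∉ m.hat A := fun h1 => hxw (hA x h1 w hw)
  have hiff := fun g => hat_iff h m hA hx hw hxw (g := g)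
  -- decomposition
  have hdec : ∀ a ∈ W, ∀ b ∈ W, ∀ c d : Fin n → F, (∀ v ∈ W, hermForm n F q c v = 0) →
      (∀ v ∈ W, hermForm n F q d v = 0) → a + c = b + d → a = b ∧ c = d := by
    intro a ha b hb c d hc hd e
    have h1 : a - b = d - c := by rw [sub_eq_sub_iff_add_eq_add, e, add_comm]
    have h2 : a - b = 0 := by
      apply hWn _ (sub_mem ha hb)
      intro v hv
      rw [h1, herm_sub_left, hc v hv, hd v hv, sub_zero]
    have h3 := sub_eq_zero.1 h2
    refine ⟨h3, ?_⟩
    rw [h3] at e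
    exact add_left_cancel e
  have hperp : ∀ g ∈ m.hat A, ∀ c : Fin n → F, (∀ v ∈ W, hermForm n F q c v = 0) →
      ∀ v ∈ W, hermForm n F q (ac g c) v = 0 := by
    intro g hg c hc v hv
    rw [herm_ac_left (mem_inf.1 (m.hat_le A hg)).1]
    exact hc _ (hA _ (inv_mem hg) v hv)
  have hsm : ∀ (a : F) (c : Fin n → F), (∀ v ∈ W, hermForm n F q c v = 0) → ∀ v ∈ W, hermForm n F q (a • c) v = 0 := by
    intro a c hc v hv
    rw [herm_smul_left, hc v hv, mul_zero]
  -- the condition
  have star : ∀ g ∈ m.hat A, (x⁻¹ * g * x ∈ m.hat A ↔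
      ∀ v ∈ W, hermForm n F q v w • ac g u = hermForm n F q (ac g v) w • u) := by
    intro g hg
    constructor
    · intro h1 v hv
      have h2 := hA _ h1 v hv
      set v1 := ac (x⁻¹ * g * x) v with hv1
      have h3 : ac g (ac x v) = ac x v1 := by
        rw [hv1, ← ac_mul, ← ac_mul]
        congr 1
        group
      rw [hxW v hv, hxW v1 h2, map_add, map_smul] at h3
      obtain ⟨h4, h5⟩ := hdec _ (hA g hg v hv) _ h2 _ _ (hsm _ _ (hperp g hg u hu)) (hsm _ _ hu) h3
      rw [h4]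
      have h6 : d • (hermForm n F q v w • ac g u) = d • (hermForm n F q v1 w • u) := by
        rw [smul_smul, smul_smul]; exact h5
      exact smul_right_injective _ hd0 h6
    · intro h1
      rw [hiff]
      refine ⟨mul_mem (mul_mem (inv_mem hx) (m.hat_le A hg)) hx, fun v hv => ?_⟩
      have h2 : ac g (ac x v) = ac x (ac g v) := by
        rw [hxW v hv, hxW _ (hA g hg v hv), map_add, map_smul, mul_smul, h1 v hv, ← mul_smul]
      rw [ac_mul, ac_mul, h2, ac_inv_ac]
      exact hA g hg v hv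
  have hpA : p ∈ m.hat A := (hiff p).2 ⟨hp, hpW⟩
  have hα : α ≠ 0 := by
    rintro rfl
    rw [zero_smul] at hpw
    have h1 : w = 0 := ac_inj p (by rw [hpw, map_zero])
    rw [h1, herm_zero_left] at hww
    exact zero_ne_one hww
  have hδ : δ ≠ 0 := by
    rintro rfl
    rw [zero_smul] at hpu
    exact hu0 (ac_inj p (by rw [hpu, map_zero]))
  have hpw' : ac p⁻¹ w = α⁻¹ • w := ac_inv_eq (by rw [map_smul, hpw, smul_smul, inv_mul_cancel₀ hα, one_smul])
  have hpu' : ac p⁻¹ u = δ⁻¹ • u := ac_inv_eq (by rw [map_smul, hpu, smul_smul, inv_mul_cancel₀ hδ, one_smul])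
  have hpG := (mem_inf.1 hp).1
  have key := kill_norm h m hx hxA hpA (fun g hg hgx => by
    have hpg : p * g * p⁻¹ ∈ m.hat A := mul_mem (mul_mem hpA hg) (inv_mem hpA)
    rw [star _ hpg]
    rw [star g hg] at hgx
    intro v hv
    have hv' := hA _ (inv_mem hpA) v hv
    have h1 := hgx _ hv'
    have e1 : hermForm n F q v w = (α⁻¹) ^ q * hermForm n F q (ac p⁻¹ v) w := by
      have : v = ac p (ac p⁻¹ v) := (ac_ac_inv p v).symm
      conv_lhs => rw [this]
      rw [herm_ac_left hpG, hpw', herm_smul_right]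
    have e2 : hermForm n F q (ac (p * g * p⁻¹) v) w = (α⁻¹) ^ q * hermForm n F q (ac g (ac p⁻¹ v)) w := by
      rw [ac_mul, ac_mul, herm_ac_left hpG, hpw', herm_smul_right]
    have h3 : ac p (ac g u) = δ • ac p (ac g (δ⁻¹ • u)) := by
      rw [map_smul, map_smul, smul_smul, mul_inv_cancel₀ hδ, one_smul]
    have h4 : hermForm n F q (ac p⁻¹ v) w • ac p (ac g u) = hermForm n F q (ac g (ac p⁻¹ v)) w • (δ • u) := by
      rw [← map_smul (ac p), h1, map_smul, hpu]
    rw [e1, e2, ac_mul, ac_mul, hpu', mul_smul, mul_smul]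
    congr 1
    rw [h3, smul_comm, smul_comm (hermForm n F q (ac g (ac p⁻¹ v)) w) δ] at h4
    exact smul_right_injective _ hδ h4)
  have h2 := (star p hpA).1 key w hw
  rw [hww, hpw, herm_smul_left, hww, one_smul, mul_one, hpu] at h2
  apply hαδ
  have h3 : (δ - α) • u = 0 := by rw [sub_smul, h2, sub_self]
  rcases smul_eq_zero.1 h3 with h4 | h4
  · exact (sub_eq_zero.1 h4).symm
  · exact absurd h4 hu0

include hF in
theorem exists_cube (hq : q ≠ 2) : ∃ b : F, b * b ^ q = 1 ∧ b ^ 3 ≠ 1 := by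
  by_contra hcon
  push Not at hcon
  have h1 := card_norm_eq_one hF
  have h2 := two_le hF
  let f : {x : F // x * x ^ q = 1} → rootsOfUnity 3 F := fun x => rootsOfUnity.mkOfPowEq x.1 (hcon x.1 x.2)
  have hf : Function.Injective f := by
    intro x y hxy
    apply Subtype.ext
    have := congrArg (fun z : rootsOfUnity 3 F => ((z : Fˣ) : F)) hxy
    exact this
  have h3 := Nat.card_le_card_of_injective f hf
  have h4 : Nat.card (rootsOfUnity 3 F) ≤ 3 := card_rootsOfUnity F 3
  omega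

include h hF in
theorem nondeg_core (hq : ¬ (n = 3 ∧ q = 2)) (hWn : ∀ u ∈ W, (∀ v ∈ W, hermForm n F q u v = 0) → u = 0)
    (hW0 : W ≠ ⊥) (h2 : 2 ≤ finrank F (hermPerp q (W : Set (Fin n → F)) : Submodule F (Fin n → F)))
    (hA : ∀ g ∈ m.hat A, ∀ v ∈ W, ac g v ∈ W) : False := by
  obtain ⟨b, hb, hbb⟩ := exists_orthonormal hF W hWn rfl
  obtain ⟨c, hc, hcc⟩ := exists_orthonormal hF _ (hermPerp_nondeg hF W hWn) rfl
  have hsum := finrank_hermPerp_of_nondeg hF W hWn
  have hk : 0 < finrank F W := Submodule.one_le_finrank_iff.2 hW0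
  obtain ⟨a, ha⟩ := exists_norm_eq hF (c := (-1 : F)) (by rw [neg_pow_q hF, one_pow])
  obtain ⟨β, hβ1, hβ2⟩ := Cfsg.Agent.ClassicalGeometry.GUBasic.exists_norm_one hF
  have hβ : β * β ^ q = 1 := by rw [← pow_succ']; exact hβ1
  set w := b ⟨0, hk⟩ with hw
  set e1 := c ⟨0, by omega⟩ with he1
  set e2 := c ⟨1, by omega⟩ with he2
  have hww : hermForm n F q w w = 1 := by rw [hw, hbb, if_pos rfl]
  have h11 : hermForm n F q e1 e1 = 1 := by rw [he1, hcc, if_pos rfl]
  have h22 : hermForm n F q e2 e2 = 1 := by rw [he2, hcc, if_pos rfl]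
  have h12 : hermForm n F q e1 e2 = 0 := by rw [he1, he2, hcc, if_neg (by simp)]
  have h21 : hermForm n F q e2 e1 = 0 := herm_eq_zero_swap hF h12
  have hwW : w ∈ W := hb _
  have he1W : ∀ v ∈ W, hermForm n F q e1 v = 0 := fun v hv => hc _ v hv
  have he2W : ∀ v ∈ W, hermForm n F q e2 v = 0 := fun v hv => hc _ v hv
  set u := e1 + a • e2 with hu
  have huW : ∀ v ∈ W, hermForm n F q u v = 0 := by
    intro v hv
    rw [hu, herm_add_left, herm_smul_left, he1W v hv, he2W v hv, mul_zero, add_zero]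
  have huu : hermForm n F q u u = 0 := by
    rw [hu, herm_add_left, herm_add_right hF, herm_add_right hF, herm_smul_left, herm_smul_right, herm_smul_left,
      herm_smul_right, h11, h22, h12, h21]
    linear_combination ha
  have hu0 : u ≠ 0 := by
    intro e
    have : hermForm n F q u e1 = 1 := by rw [hu, herm_add_left, herm_smul_left, h11, h21]; ring
    rw [e, herm_zero_left] at this
    exact zero_ne_one this
  have kill := fun p hp hpW α δ hpw hpu hne => nondeg_kill h hF m hWn hA hwW hww huW huu hu0 (p := p) hp hpW (α := α)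
    (δ := δ) hpw hpu hne
  -- with a further unit vector
  have case1 : ∀ z : Fin n → F, hermForm n F q z z = 1 → hermForm n F q w z = 0 → hermForm n F q u z = 0 →
      (z ∈ W ∨ ∀ v ∈ W, hermForm n F q v z = 0) → False := by
    intro z hzz hwz huz hzW
    obtain ⟨p, hp, hpa⟩ := exists_qq hF hww hzz hβ
    refine kill p hp ?_ β 1 ?_ ?_ hβ2
    · intro v hv
      rw [hpa]
      refine add_mem (add_mem hv ?_) (W.smul_mem _ hwW)
      rcases hzW with hz | hz
      · exact W.smul_mem _ hz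
      · rw [hz v hv, mul_zero, zero_smul]; exact zero_mem _
    · rw [hpa, hwz]
      simp only [mul_zero, zero_smul, add_zero, hww, mul_one]
      rw [sub_smul, one_smul]; abel
    · rw [hpa, huz]
      simp only [mul_zero, zero_smul, add_zero, huW w hwW, one_smul]
  rcases Nat.lt_or_ge 1 (finrank F W) with h3 | h3
  · -- `z` in `W`
    refine case1 (b ⟨1, h3⟩) (by rw [hbb, if_pos rfl]) (by rw [hw, hbb, if_neg (by simp)]) (huW _ (hb _)) (Or.inl (hb _))
  · rcases Nat.lt_or_ge 2 (finrank F (hermPerp q (W : Set (Fin n → F)) : Submodule F (Fin n → F))) with h4 | h4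
    · refine case1 (c ⟨2, h4⟩) (by rw [hcc, if_pos rfl]) (herm_eq_zero_swap hF (hc _ w hwW)) ?_ (Or.inr fun v hv =>
        herm_eq_zero_swap hF (hc _ v hv))
      rw [hu, herm_add_left, herm_smul_left, he1, he2, hcc, hcc, if_neg (by simp), if_neg (by simp)]
      ring
    · -- `n = 3`
      have hn3 : n = 3 := by omega
      obtain ⟨s, hs1, hs3⟩ := exists_cube hF (fun e => hq ⟨hn3, e⟩)
      have hs0 : s ≠ 0 := by
        rintro rfl
        rw [zero_mul] at hs1
        exact zero_ne_one hs1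
      have ht : (s ^ 3)⁻¹ * ((s ^ 3)⁻¹) ^ q = 1 := by
        have e : s ^ 3 * (s ^ 3) ^ q = 1 := by
          rw [← pow_mul, mul_comm 3 q, pow_mul, ← mul_pow, hs1, one_pow]
        rw [inv_pow, ← mul_inv, e, inv_one]
      obtain ⟨g, hg, hga, hgd⟩ := exists_sc (n := n) hs1 hF
      obtain ⟨k, hk', hka, hkd⟩ := exists_qr hF hww ht
      have hkw : ac k w = (s ^ 3)⁻¹ • w := by
        rw [hka, hww, mul_one, sub_smul, one_smul]; abel
      have hku : ac k u = u := by
        rw [hka, huW w hwW, mul_zero, zero_smul, add_zero]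
      refine kill (g * k) (mem_SS (mul_mem hg hk') ?_) ?_ (s * (s ^ 3)⁻¹) s ?_ ?_ ?_
      · rw [Units.val_mul, Matrix.det_mul, hgd, hkd, hn3, mul_inv_cancel₀ (pow_ne_zero _ hs0)]
      · intro v hv
        rw [ac_mul, hga, hka]
        exact W.smul_mem _ (add_mem hv (W.smul_mem _ hwW))
      · rw [ac_mul, hkw, hga, smul_smul]
      · rw [ac_mul, hku, hga]
      · intro e
        apply hs3
        have h5 : (s ^ 3)⁻¹ = 1 := mul_left_cancel₀ hs0 (by rw [e, mul_one])
        rwa [inv_eq_one] at h5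

/-- **reducible subgroups of `SU_n(q)`** -/
theorem su_c1 {Q : Type*} [Group Q] [Finite Q] {A : Subgroup Q} {Γ : Subgroup (MulAut Q)} (h : EPT A Γ)
    {F : Type*} [Field F] [Fintype F] {n q : ℕ} (hF : Fintype.card F = q ^ 2) (hn : 3 ≤ n) (hq : ¬ (n = 3 ∧ q = 2))
    (m : Model Q (GU n F q ⊓ Geo.specialLinear (Fin n) F)) {W : Submodule F (Fin n → F)} (hW0 : W ≠ ⊥) (hW1 : W ≠ ⊤)
    (hA : m.hat A ≤ Geo.subspaceStabilizer W) : False := by
  have hA' : ∀ g ∈ m.hat A, ∀ v ∈ W, ac g v ∈ W := fun g hg v hv => ((hA hg) v).1 hv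
  have hP : ∀ g ∈ m.hat A, ∀ v ∈ hermPerp q (W : Set (Fin n → F)), ac g v ∈ hermPerp q (W : Set (Fin n → F)) := by
    intro g hg v hv w hw
    rw [herm_ac_left (mem_inf.1 (m.hat_le A hg)).1]
    exact hv _ (hA' _ (inv_mem hg) w hw)
  by_cases hD : W ⊓ hermPerp q (W : Set (Fin n → F)) = ⊥
  · have hWn : ∀ u ∈ W, (∀ v ∈ W, hermForm n F q u v = 0) → u = 0 := by
      intro u hu hu'
      have h1 : u ∈ W ⊓ hermPerp q (W : Set (Fin n → F)) := ⟨hu, hu'⟩
      rw [hD] at h1
      exact (Submodule.mem_bot F).1 h1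
    have hsum := finrank_hermPerp_of_nondeg hF W hWn
    have hlt : finrank F W < n := by
      have := Submodule.finrank_lt hW1
      rwa [finrank_fin_fun] at this
    rcases Nat.lt_or_ge 1 (finrank F (hermPerp q (W : Set (Fin n → F)) : Submodule F (Fin n → F))) with h2 | h2
    · exact nondeg_core h hF m hq hWn hW0 h2 hA'
    · have hPn := hermPerp_nondeg hF W hWn
      refine nondeg_core h hF m hq (W := hermPerp q (W : Set (Fin n → F))) hPn ?_ ?_ hP
      · intro e
        rw [e, finrank_bot] at hsum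
        omega
      · have hsum' := finrank_hermPerp_of_nondeg hF _ hPn
        omega
  · refine iso_false h hF m hn (W := W ⊓ hermPerp q (W : Set (Fin n → F))) ?_ hD ?_
    · intro u hu v hv
      exact hu.2 v hv.1
    · intro g hg v hv
      exact ⟨hA' g hg v hv.1, hP g hg v hv.2⟩

end rows

end Cfsg.Agent.H29.EP.SU
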