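import Cfsg.Agent.H29.EP.SU
import Cfsg.Agent.H588.EPU.Asm

/-!
# S3499-III-SU-C1 in the form of `H588.EPU.Asm` (helper29)
-/

set_option autoImplicit false

namespace Cfsg.Agent.H29.EP.SU

open Matrix Module Subgroup Cfsg Cfsg.Geo Cfsg.Agent.H284 Cfsg.Agent.H419.EP Cfsg.Agent.H588.EPU
open Cfsg.Agent.LieClassical.HermBasic
open scoped MatrixGroups

/-- totally singular subspaces -/
theorem kills_C1a : Kills C1a := by
  intro Q _ _ _ A Γ h F _ _ n q m hF hn hq _ M hM hle
  obtain ⟨W, hW0, hW, rfl⟩ := hM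
  refine su_c1 h hF hn hq m hW0 ?_ (hle.trans inf_le_left)
  rintro rfl
  have h1 := hW (Pi.single ⟨0, by omega⟩ 1) Submodule.mem_top (Pi.single ⟨0, by omega⟩ 1) Submodule.mem_top
  rw [herm_single_right hF, Pi.single_eq_same, one_pow, mul_one] at h1
  exact one_ne_zero h1

/-- nondegenerate subspaces -/
theorem kills_C1b : Kills C1b := by
  intro Q _ _ _ A Γ h F _ _ n q m hF hn hq _ M hM hle
  obtain ⟨W, hW0, -, hW, rfl⟩ := hM
  refine su_c1 h hF hn hq m hW0 ?_ (hle.trans inf_le_left)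
  rintro rfl
  rw [finrank_top, finrank_fin_fun] at hW
  omega

end Cfsg.Agent.H29.EP.SU
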